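import Mathlib
import Cfsg.Agent.Lib.BF.DerLen

/-! Derived lengths of `p`-subgroups of finite general linear groups. -/

set_option autoImplicit false
set_option linter.unusedSectionVars false

namespace CfsgLib.BF

open Subgroup Module

universe u v w

variable {p : ℕ} [hp : Fact p.Prime]

/-- The natural representation attached to a homomorphism into `GL n F`. -/
noncomputable def glRep {P F : Type*} [Group P] [Field F] {n : ℕ} (ρ : P →* GL (Fin n) F) :
    Representation F P (Fin n → F) :=
  (Matrix.toLinAlgEquiv' (R := F) (n := Fin n)).toMonoidHom.comp ((Units.coeHom _).comp ρ)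

theorem glRep_ker {P F : Type*} [Group P] [Field F] {n : ℕ} {ρ : P →* GL (Fin n) F}
    (h : Function.Injective ρ) : (glRep ρ).ker = ⊥ :=
  (MonoidHom.ker_eq_bot_iff _).mpr
    ((Matrix.toLinAlgEquiv' (R := F) (n := Fin n)).injective.comp (Units.val_injective.comp h))

theorem cast_ne_zero_of_not_dvd {F : Type*} [Field F] [Fintype F] (h : ¬ p ∣ Fintype.card F) :
    (p : F) ≠ 0 := fun H => by
  have := (CharP.charP_iff_prime_eq_zero hp.out).mpr H
  exact h ((prime_dvd_char_iff_dvd_card p).mp (by rw [ringChar.eq F p]))

theorem orderOf_card_pos {q : ℕ} (h : ¬ p ∣ q) : 0 < orderOf (q : ZMod p) :=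
  (isOfFinOrder_iff_pow_eq_one.mpr ⟨p - 1, Nat.sub_pos_of_lt hp.out.one_lt,
    ZMod.pow_card_sub_one_eq_one fun H => h ((ZMod.natCast_eq_zero_iff q p).mp H)⟩).orderOf_pos

theorem der_finite_field {F : Type v} [Field F] [Fintype F] (hq : ¬ p ∣ Fintype.card F) (k n : ℕ)
    (hk : n / orderOf (Fintype.card F : ZMod p) < p ^ k) {P : Type u} [Group P] [Finite P]
    {V : Type w} [AddCommGroup V] [Module F V] [FiniteDimensional F V] (ρ : Representation F P V)
    (hP : IsPGroup p P) (hn : finrank F V ≤ n) : derivedSeries P k ≤ ρ.ker := by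
  have hF := cast_ne_zero_of_not_dvd hq
  refine der_reduce hF k n ?_ _ P V ρ hP hn le_rfl
  clear hn hP ρ
  intro P _ _ V _ _ _ _ ρ hP hn hρ hirr
  rcases subsingleton_or_nontrivial P with h | h
  · exact Subsingleton.elim _ _
  have := hP.center_nontrivial
  obtain ⟨z, hz⟩ := exists_prime_orderOf_dvd_card' (G := center P) p
    (((hP.to_subgroup _).card_eq_or_dvd).resolve_left Finite.one_lt_card.ne')
  let E := Algebra.adjoin F ({ρ z} : Set (End F V))
  have hc : ∀ a ∈ E, ∀ g, a * ρ g = ρ g * a := fun a ha g =>
    (Algebra.commute_of_mem_adjoin_singleton_of_commute ha (show ρ g * ρ z = ρ z * ρ g by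
      rw [← map_mul, ← map_mul, mem_center_iff.mp z.2 g])).symm
  have hinj : ∀ a : E, a ≠ 0 → Function.Injective (a : End F V) := fun a ha => by
    rw [← LinearMap.ker_eq_bot]
    refine (hirr _ fun g v hv => ?_).resolve_right fun H => ha (Subtype.ext (LinearMap.ker_eq_top.mp H))
    rw [LinearMap.mem_ker, ← End.mul_apply, hc a a.2, End.mul_apply, LinearMap.mem_ker.mp hv, map_zero]
  have : Finite V := Module.finite_of_finite F
  have : Finite (End F V) := Module.finite_of_finite F
  have : NoZeroDivisors E := ⟨fun {a b} hab => by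
    by_contra H
    push Not at H
    refine H.2 (Subtype.ext (LinearMap.ext fun v => hinj a H.1 ?_))
    simpa using LinearMap.congr_fun (congrArg Subtype.val hab) v⟩
  have : IsDomain E := NoZeroDivisors.to_isDomain E
  letI : Field E := (Finite.isDomain_to_isField E).toField
  letI : Fintype E := Fintype.ofFinite E
  have : FiniteDimensional E V := Module.Finite.of_finite
  let σ : Representation E P V :=
    { toFun := fun g =>
        { toFun := ρ g
          map_add' := map_add _
          map_smul' := fun (a : E) v => LinearMap.congr_fun (hc a.1 a.2 g).symm v }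
      map_one' := LinearMap.ext fun v => LinearMap.congr_fun (map_one ρ) v
      map_mul' := fun a b => LinearMap.ext fun v => LinearMap.congr_fun (map_mul ρ a b) v }
  have hE : (p : E) ≠ 0 := fun H => hF ((algebraMap F E).injective (by simpa using H))
  have hd := finrank_mul_finrank F E V
  let ζ : E := ⟨ρ z, Algebra.self_mem_adjoin_singleton F _⟩
  have hζ : orderOf ζ = p := by
    rw [← orderOf_injective E.val.toMonoidHom Subtype.val_injective, ← hz, ← orderOf_coe,
      ← orderOf_injective ρ hρ]
    rfl
  have hζ0 : ζ ≠ 0 := fun H => by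
    have := pow_orderOf_eq_one ζ
    rw [hζ, H, zero_pow hp.out.ne_zero] at this
    exact zero_ne_one this
  have h1 := orderOf_dvd_of_pow_eq_one (FiniteField.pow_card_sub_one_eq_one ζ hζ0)
  rw [hζ, Module.card_eq_pow_finrank (K := F)] at h1
  have h2 : (Fintype.card F : ZMod p) ^ finrank F E = 1 := by
    have := (ZMod.natCast_eq_zero_iff _ p).mpr h1
    rwa [Nat.cast_sub (Nat.one_le_pow _ _ Fintype.card_pos), Nat.cast_pow, Nat.cast_one,
      sub_eq_zero] at this
  have h3 := Nat.le_of_dvd finrank_pos (orderOf_dvd_of_pow_eq_one h2)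
  have h4 : finrank E V ≤ n / orderOf (Fintype.card F : ZMod p) := by
    rw [Nat.le_div_iff_mul_le (orderOf_card_pos hq), mul_comm]
    exact (Nat.mul_le_mul_right _ h3).trans (hd.le.trans hn)
  rw [eq_bot_iff]
  intro y hy
  have := der_field hE k σ hP (h4.trans_lt hk) hy
  exact hρ (LinearMap.ext fun v => by
    rw [map_one]; exact LinearMap.congr_fun (MonoidHom.mem_ker.mp this) v)

/-- The imprimitive representation of a wreath product. -/
def wrRep {D Q F V : Type*} [Group D] [Group Q] [Field F] [AddCommGroup V] [Module F V]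
    (ρ : Representation F D V) : Representation F (D ≀ᵣ Q) (Q → V) where
  toFun w := LinearMap.pi fun x => ρ (w.left x) ∘ₗ LinearMap.proj (w.right⁻¹ * x)
  map_one' := by ext; simp
  map_mul' a b := LinearMap.ext fun f => funext fun x => by simp [mul_assoc]

theorem wrRep_injective {D Q F V : Type*} [Group D] [Group Q] [Field F] [AddCommGroup V] [Module F V]
    [Nontrivial V] {ρ : Representation F D V} (h : Function.Injective ρ) :
    Function.Injective (wrRep (Q := Q) ρ) := by
  classical
  rw [injective_iff_map_eq_one]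
  intro w hw
  have key : ∀ (f : Q → V) (x : Q), ρ (w.left x) (f (w.right⁻¹ * x)) = f x := fun f x =>
    congrFun (LinearMap.congr_fun hw f) x
  obtain ⟨v, hv⟩ := exists_ne (0 : V)
  have h1 : w.right = 1 := by
    by_contra H
    have := key (Pi.single 1 v) 1
    rw [mul_one, Pi.single_eq_of_ne (inv_ne_one.mpr H), map_zero, Pi.single_eq_same] at this
    exact hv this.symm
  ext x
  · exact h (LinearMap.ext fun v => by simpa using key (fun _ => v) x)
  · exact h1

theorem exists_long {F : Type v} [Field F] [Fintype F] (hq : ¬ p ∣ Fintype.card F) (k : ℕ) :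
    ∃ (D : Type v) (_ : Group D) (V : Type v) (_ : AddCommGroup V) (_ : Module F V)
      (_ : FiniteDimensional F V) (ρ : Representation F D V), Finite D ∧ IsPGroup p D ∧
      Function.Injective ρ ∧ finrank F V = orderOf (Fintype.card F : ZMod p) * p ^ k ∧
      derivedSeries D k ≠ ⊥ := by
  have he := orderOf_card_pos hq
  induction k with
  | zero =>
    set e := orderOf (Fintype.card F : ZMod p) with hedef
    obtain ⟨z, hz⟩ := exists_prime_orderOf_dvd_card' (G := GL (Fin e) F) p (by
      rw [Matrix.card_GL_field]
      refine Dvd.dvd.trans ?_ (Finset.dvd_prod_of_mem _ (Finset.mem_univ ⟨0, he⟩))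
      rw [← ZMod.natCast_eq_zero_iff, Nat.cast_sub (by simpa using Nat.one_le_pow _ _ Fintype.card_pos)]
      simp [hedef, pow_orderOf_eq_one])
    have hcard : Nat.card (zpowers z) = p := by rw [Nat.card_zpowers, hz]
    refine ⟨zpowers z, inferInstance, Fin e → F, inferInstance, inferInstance, inferInstance,
      glRep (zpowers z).subtype, inferInstance, IsPGroup.of_card (n := 1) (by simpa using hcard),
      (MonoidHom.ker_eq_bot_iff _).mp (glRep_ker (zpowers z).subtype_injective), by simp, ?_⟩
    have : Nontrivial (zpowers z) := Finite.one_lt_card_iff_nontrivial.mp (hcard ▸ hp.out.one_lt)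
    exact top_ne_bot
  | succ k ih =>
    obtain ⟨D, _, V, _, _, _, ρ, _, hD, hρ, hV, hk⟩ := ih
    have : Nontrivial V := finrank_pos_iff.mp (show 0 < finrank F V by
      rw [hV]; exact Nat.mul_pos he (pow_pos hp.out.pos k))
    obtain ⟨a, ha⟩ := IsPGroup.iff_card.mp hD
    refine ⟨D ≀ᵣ Multiplicative (ZMod p), inferInstance, Multiplicative (ZMod p) → V, inferInstance,
      inferInstance, inferInstance, wrRep ρ, inferInstance,
      IsPGroup.of_card (n := a * p + 1) ?_, wrRep_injective hρ, ?_, der_wreath hk⟩
    · rw [RegularWreathProduct.card, ha]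
      simp [pow_succ, pow_mul]
    · rw [finrank_pi_fintype]
      simp [hV, pow_succ]
      ring

theorem exists_gl_of_rep {D F V : Type*} [Group D] [Field F] [AddCommGroup V] [Module F V]
    [FiniteDimensional F V] (ρ : Representation F D V) (hρ : Function.Injective ρ) {n : ℕ}
    (hn : finrank F V ≤ n) : ∃ f : D →* GL (Fin n) F, Function.Injective f := by
  let W := V × (Fin (n - finrank F V) → F)
  let b := finBasisOfFinrankEq F W (n := n) (by simp [W]; omega)
  let σ : Representation F D W :=
    { toFun := fun g => (ρ g).prodMap LinearMap.id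
      map_one' := by rw [map_one]; rfl
      map_mul' := fun a b => by rw [map_mul]; rfl }
  refine ⟨((LinearMap.toMatrixAlgEquiv b).toMonoidHom.comp σ).toHomUnits, fun x y h => hρ ?_⟩
  have h1 : σ x = σ y := (LinearMap.toMatrixAlgEquiv b).injective (congrArg Units.val h)
  exact LinearMap.ext fun v => congrArg Prod.fst (LinearMap.congr_fun h1 (v, 0))

end CfsgLib.BF
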